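import Cfsg.Agent.Leech.MCls

/-! A complex representation of the group of the length-24 code on which an involution with fixed
points acts nontrivially has degree at least 23 (averaging over small subgroups). -/

set_option autoImplicit false

namespace CF.Leech.MD

open Cfsg CF.Comp CF.Leech.M Module LinearMap

/-- the map of positions describes the element -/
def Rp (σ : M24) (f : ℕ → ℕ) : Prop := ∀ i < 24, idx (σ.1 (pt i)) = f i

/-- the element with a packed table -/
noncomputable def tE (g : ℕ) : M24 := if h : isM24 g = true then ⟨_, permOf_mem_M24 h⟩ else 1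

theorem rp_tE {g : ℕ} (h : isM24 g = true) : Rp (tE g) (ap g) := by
  rw [tE, dif_pos h]; exact idx_permOf (permCheck_of_isM24 h)

theorem rp_one : Rp 1 fun i => i := fun _ => idx_pt

theorem Rp.mul {σ σ' : M24} {f f' : ℕ → ℕ} (h : Rp σ f) (h' : Rp σ' f') :
    Rp (σ * σ') fun i => f (f' i) := fun i hi => by
  beta_reduce
  rw [← h' i hi, ← h _ (idx_lt _), pt_idx]; rfl

theorem Rp.ext {σ σ' : M24} {f f' : ℕ → ℕ} (h : Rp σ f) (h' : Rp σ' f')
    (e : allLt 24 (fun i => Nat.beq (f i) (f' i)) = true) : σ = σ' :=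
  Subtype.ext (Equiv.ext (forall_pt.2 fun i hi => idx_injective (by
    rw [h i hi, h' i hi, beq_iff.1 (allLt_iff.1 e i hi)])))

/-- iterates -/
noncomputable def pw (f : ℕ → ℕ) (e : ℕ) : ℕ → ℕ :=
  Nat.rec (motive := fun _ => ℕ → ℕ) (fun i => i) (fun _ ih i => ih (f i)) e

theorem Rp.pow {σ : M24} {f : ℕ → ℕ} (h : Rp σ f) (e : ℕ) : Rp (σ ^ e) (pw f e) := by
  induction e with
  | zero => rw [pow_zero]; exact rp_one
  | succ e ih => rw [pow_succ]; exact ih.mul h

theorem Rp.card_fx {σ : M24} {f : ℕ → ℕ} (h : Rp σ f) :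
    (fx σ).card = cntLt 24 fun i => Nat.beq (f i) i := by
  rw [cntLt_eq, Finset.card_filter, Finset.card_filter, sum_pts]
  refine Finset.sum_congr rfl fun i hi => if_congr ?_ rfl rfl
  rw [beq_iff, ← h i (Finset.mem_range.1 hi), idx_eq_iff (Finset.mem_range.1 hi)]

/-- class code: identity, the two classes of involutions, the two classes of order three, other -/
noncomputable def cl (f : ℕ → ℕ) : ℕ :=
  force (cntLt 24 fun i => Nat.beq (f i) i) fun c =>
    Bool.rec (Bool.rec (Bool.rec 5 (Bool.rec 3 4 (Nat.beq c 0))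
      (allLt 24 fun i => Nat.beq (f (f (f i))) i)) (Bool.rec 1 2 (Nat.beq c 0))
      (allLt 24 fun i => Nat.beq (f (f i)) i)) 0 (Nat.beq c 24)

/-- class representatives -/
noncomputable def rp (k : ℕ) : M24 := ev m (nth [] [[], e2a, e2b, e3a, e3b] k)

theorem Rp.conj {σ : M24} {f : ℕ → ℕ} (h : Rp σ f) (h5 : cl f ≠ 5) :
    ∃ x, x * σ * x⁻¹ = rp (cl f) := by
  have c := h.card_fx
  have ne : Nat.beq (fx σ).card 24 = false → σ ≠ 1 := by
    rintro e rfl
    rw [show fx (1 : M24) = Finset.univ by simp [fx], Finset.card_univ, card_pts] at e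
    exact absurd e (by decide)
  rw [cl, force_eq, ← c] at h5 ⊢
  cases a : Nat.beq (fx σ).card 24 with
  | true =>
    refine ⟨1, Subtype.ext (Equiv.ext fun p => ?_)⟩
    have := Finset.eq_univ_of_card _ ((beq_iff.1 a).trans card_pts.symm)
    rw [one_mul, inv_one, mul_one]
    exact (Finset.mem_filter.1 (this ▸ Finset.mem_univ p : p ∈ fx σ)).2
  | false =>
    cases b : allLt 24 fun i => Nat.beq (f (f i)) i with
    | true =>
      have o : orderOf σ = 2 := orderOf_eq_prime (by rw [sq]; exact (h.mul h).ext rp_one b) (ne a)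
      cases d : Nat.beq (fx σ).card 0 with
      | true => exact cls2b o (beq_iff.1 d)
      | false => exact cls2a o (Nat.ne_of_beq_eq_false d)
    | false =>
      cases b' : allLt 24 fun i => Nat.beq (f (f (f i))) i with
      | true =>
        have o : orderOf σ = 3 := orderOf_eq_prime (by
          rw [pow_three]; exact (h.mul (h.mul h)).ext rp_one b') (ne a)
        cases d : Nat.beq (fx σ).card 0 with
        | true => exact cls3b o (beq_iff.1 d)
        | false => exact cls3a o (Nat.ne_of_beq_eq_false d)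
      | false => rw [a, b, b'] at h5; exact absurd rfl h5

theorem cl_lt (f : ℕ → ℕ) : cl f < 6 := by
  rw [cl, force_eq]
  generalize Nat.beq _ 24 = a; generalize Nat.beq _ 0 = b
  generalize allLt 24 (fun i => Nat.beq (f (f (f i))) i) = c
  generalize allLt 24 (fun i => Nat.beq (f (f i)) i) = d
  cases a <;> cases b <;> cases c <;> cases d <;> decide

/-- some product `f s₁^e₁ ⋯ sₖ^eₖ` passes the test -/
noncomputable def anyLf (Φ : (ℕ → ℕ) → Bool) (t : List (ℕ × ℕ)) : (ℕ → ℕ) → Bool :=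
  List.rec (motive := fun _ => (ℕ → ℕ) → Bool) Φ
    (fun s _ ih f => anyLt s.2 fun e => ih fun i => f (pw (ap s.1) e i)) t

/-- the number of products in class `k` -/
noncomputable def cv (k : ℕ) (t : List (ℕ × ℕ)) : (ℕ → ℕ) → ℕ :=
  List.rec (motive := fun _ => (ℕ → ℕ) → ℕ) (fun f => b2n (Nat.beq (cl f) k))
    (fun s _ ih f => sumLt s.2 fun e => ih fun i => f (pw (ap s.1) e i)) t

/-- each generator has the given order and normalises the group of the later ones -/
noncomputable def okS (t : List (ℕ × ℕ)) : Bool :=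
  List.rec (motive := fun _ => Bool) true (fun s t ih => Bool.rec false
    (Bool.rec false (allL t fun u => anyLf
      (fun f => allLt 24 fun i => Nat.beq (ap u.1 (ap s.1 i)) (ap s.1 (f i))) t fun i => i)
      (Bool.rec false (allLt 24 fun i => Nat.beq (pw (ap s.1) s.2 i) i) (isM24 s.1))) ih) t

theorem okS_cons {s : ℕ × ℕ} {t : List (ℕ × ℕ)} (h : okS (s :: t) = true) : okS t = true ∧
    (isM24 s.1 = true ∧ allLt 24 (fun i => Nat.beq (pw (ap s.1) s.2 i) i) = true) ∧
    ∀ u ∈ t, anyLf (fun f => allLt 24 fun i => Nat.beq (ap u.1 (ap s.1 i)) (ap s.1 (f i))) t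
      (fun i => i) = true :=
  have a := Leech.brec_and.1 h
  have b := Leech.brec_and.1 a.2
  ⟨a.1, Leech.brec_and.1 b.1, allL_iff.1 b.2⟩

theorem okS_mem {t : List (ℕ × ℕ)} (h : okS t = true) : ∀ u ∈ t, isM24 u.1 = true := by
  induction t with
  | nil => simp
  | cons s t ih => exact List.forall_mem_cons.2 ⟨(okS_cons h).2.1.1, ih (okS_cons h).1⟩

variable {U : Type*} [AddCommGroup U] [Module ℂ U] (β : M24 →* End ℂ U)

/-- common fixed vectors -/
def Fx (t : List (ℕ × ℕ)) : Submodule ℂ U where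
  carrier := {v | ∀ u ∈ t, β (tE u.1) v = v}
  add_mem' := fun a b u hu => by rw [map_add, a u hu, b u hu]
  zero_mem' := fun _ _ => map_zero _
  smul_mem' := fun c _ a u hu => by rw [map_smul, a u hu]

/-- the sum over all products -/
noncomputable def Op : List (ℕ × ℕ) → End ℂ U
  | [] => 1
  | s :: t => (∑ e ∈ Finset.range s.2, β (tE s.1 ^ e)) * Op t

variable {β}

theorem pow_fix {g : M24} {v : U} (h : β g v = v) (e : ℕ) : β (g ^ e) v = v := by
  induction e with
  | zero => simp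
  | succ e ih => rw [pow_succ, map_mul, End.mul_apply, h, ih]

theorem anyLf_spec {Φ : (ℕ → ℕ) → Bool} {t : List (ℕ × ℕ)} (ht : ∀ u ∈ t, isM24 u.1 = true)
    {g : M24} {f : ℕ → ℕ} (h : Rp g f) (a : anyLf Φ t f = true) :
    ∃ x f', Rp (g * x) f' ∧ Φ f' = true ∧ ∀ v ∈ Fx β t, β x v = v := by
  induction t generalizing g f with
  | nil => exact ⟨1, f, by rwa [mul_one], a, by simp⟩
  | cons s t ih =>
    obtain ⟨e, -, b⟩ := anyLt_iff.1 a
    obtain ⟨x, f', c, d, k⟩ := ih (fun u hu => ht u (List.mem_cons_of_mem _ hu))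
      (h.mul ((rp_tE (ht s List.mem_cons_self)).pow e)) b
    refine ⟨_, f', mul_assoc g _ x ▸ c, d, fun v hv => ?_⟩
    rw [map_mul, End.mul_apply, k v fun u hu => hv u (List.mem_cons_of_mem _ hu),
      pow_fix (hv s List.mem_cons_self)]

theorem Op_fix {t : List (ℕ × ℕ)} {v : U} (h : v ∈ Fx β t) :
    Op β t v = (((t.map Prod.snd).prod : ℕ) : ℂ) • v := by
  induction t with
  | nil => simp [Op]
  | cons s t ih =>
    rw [Op, End.mul_apply, ih fun u hu => h u (List.mem_cons_of_mem _ hu), map_smul,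
      LinearMap.sum_apply, Finset.sum_congr rfl fun e _ => pow_fix (h s List.mem_cons_self) e]
    simp [smul_smul, ← Nat.cast_smul_eq_nsmul ℂ, mul_comm]

theorem Op_mem {t : List (ℕ × ℕ)} (h : okS t = true) (v : U) : Op β t v ∈ Fx β t := by
  induction t with
  | nil => simp [Fx]
  | cons s t ih =>
    obtain ⟨a, ⟨b, c⟩, d⟩ := okS_cons h
    have k : ∀ w ∈ Fx β t, β (tE s.1) w ∈ Fx β t := fun w hw u hu => by
      obtain ⟨x, f, e1, e2, e3⟩ := anyLf_spec (β := β) (okS_mem a) rp_one (d u hu)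
      have := ((rp_tE (okS_mem a u hu)).mul (rp_tE b)).ext ((rp_tE b).mul e1) e2
      rw [← End.mul_apply, ← map_mul, this, one_mul, map_mul, End.mul_apply, e3 w hw]
    have k' : ∀ e, ∀ w ∈ Fx β t, β (tE s.1 ^ e) w ∈ Fx β t := fun e w hw => by
      induction e with
      | zero => simpa using hw
      | succ e ih => rw [pow_succ', map_mul]; exact k _ ih
    refine List.forall_mem_cons.2 ⟨?_, ?_⟩
    · rw [Op, End.mul_apply, ← End.mul_apply (β _), Finset.mul_sum]
      have := Finset.sum_range_succ' (fun e => β (tE s.1 ^ e)) s.2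
      rw [Finset.sum_range_succ, ((rp_tE b).pow _).ext rp_one c, pow_zero, add_left_inj] at this
      rw [this]
      simp only [← map_mul, ← pow_succ']
    · rw [Op, End.mul_apply, LinearMap.sum_apply]
      exact (Fx β t).sum_mem fun e _ => k' e _ (ih a)

variable [FiniteDimensional ℂ U]

theorem tr_Op {t : List (ℕ × ℕ)} (h : okS t = true) (h0 : (t.map Prod.snd).prod ≠ 0) :
    trace ℂ U (Op β t) = (((t.map Prod.snd).prod : ℕ) : ℂ) * finrank ℂ (Fx β t) := by
  have n : (((t.map Prod.snd).prod : ℕ) : ℂ) ≠ 0 := Nat.cast_ne_zero.2 h0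
  have : IsProj (Fx β t) ((((t.map Prod.snd).prod : ℕ) : ℂ)⁻¹ • Op β t) :=
    ⟨fun v => Submodule.smul_mem _ _ (Op_mem h v), fun v hv => by
      rw [LinearMap.smul_apply, Op_fix hv, inv_smul_smul₀ n]⟩
  rw [← this.trace, map_smul, smul_eq_mul, mul_inv_cancel_left₀ n]

theorem tr_conj (x g : M24) : trace ℂ U (β (x * g * x⁻¹)) = trace ℂ U (β g) := by
  rw [map_mul, trace_mul_comm, ← map_mul, ← mul_assoc, inv_mul_cancel, one_mul]

theorem tr_cv {t : List (ℕ × ℕ)} (ht : ∀ u ∈ t, isM24 u.1 = true) {g : M24} {f : ℕ → ℕ}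
    (h : Rp g f) (h5 : cv 5 t f = 0) : trace ℂ U (β g * Op β t) =
      ∑ k ∈ Finset.range 5, (cv k t f : ℂ) * trace ℂ U (β (rp k)) := by
  induction t generalizing g f with
  | nil =>
    have e : ∀ k, cv k [] f = if cl f = k then 1 else 0 := fun k =>
      (b2n_eq _).trans (if_congr beq_iff rfl rfl)
    have n : cl f ≠ 5 := fun k => by simp [e, k] at h5
    obtain ⟨x, hx⟩ := h.conj n
    have := cl_lt f
    simp [e, Op, show cl f < 5 by omega, ← hx, tr_conj, -map_mul]
  | cons s t ih =>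
    have e : ∀ k, cv k (s :: t) f = ∑ e ∈ Finset.range s.2, cv k t fun i => f (pw (ap s.1) e i) :=
      fun k => sumLt_eq _ _
    rw [e, Finset.sum_eq_zero_iff] at h5
    rw [Op, ← mul_assoc, Finset.mul_sum, Finset.sum_mul, map_sum]
    simp only [e, Nat.cast_sum, Finset.sum_mul]
    rw [Finset.sum_comm]
    refine Finset.sum_congr rfl fun j hj => ?_
    rw [← map_mul]
    exact ih (fun u hu => ht u (List.mem_cons_of_mem _ hu))
      (h.mul ((rp_tE (ht s List.mem_cons_self)).pow j)) (h5 j hj)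

/-- the check of a sequence with its class counts -/
noncomputable def chk (t : List (ℕ × ℕ)) (N : ℕ) (c : List ℕ) : Bool :=
  Bool.rec false (Bool.rec false (Nat.beq (t.map Prod.snd).prod (N + 1))
    (allLt 6 fun k => Nat.beq (cv k t fun i => i) (nth 0 c k))) (okS t)

theorem chk_spec {t : List (ℕ × ℕ)} {N a b c d : ℕ} (h : chk t N [1, a, b, c, d, 0] = true) :
    ((N + 1 : ℕ) : ℂ) * finrank ℂ (Fx β t) = finrank ℂ U + a * trace ℂ U (β (rp 1)) +
      b * trace ℂ U (β (rp 2)) + c * trace ℂ U (β (rp 3)) + d * trace ℂ U (β (rp 4)) := by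
  obtain ⟨h1, h2⟩ := Leech.brec_and.1 h
  obtain ⟨h2, h3⟩ := Leech.brec_and.1 h2
  have k := fun i hi => beq_iff.1 (allLt_iff.1 h2 i hi)
  have := tr_cv (β := β) (okS_mem h1) rp_one (k 5 (by norm_num))
  rw [map_one, one_mul, tr_Op h1 (by rw [beq_iff.1 h3]; omega), beq_iff.1 h3] at this
  rw [this]
  simp only [Finset.sum_range_succ, Finset.sum_range_zero, k 0 (by norm_num), k 1 (by norm_num),
    k 2 (by norm_num), k 3 (by norm_num), k 4 (by norm_num)]
  rw [show rp 0 = 1 from rfl, map_one, trace_one, zero_add,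
    show nth 0 [1, a, b, c, d, 0] 0 = 1 from rfl, Nat.cast_one, one_mul]
  rfl

def E1 : List (ℕ × ℕ) := [(0xbd933a4a303b88c41aab7a86d28440, 2), (0xbd94f3ca30a384c2d4c39a56143480, 2),
  (0xbd8ad24a3013a8c52c660a2b34bce0, 2), (0x745149c2d27dda048d75394c45082c, 2),
  (0x648b49da11781b752c663a2a44882e, 2), (0xb5d549b1c07c5b22d4c33a56440830, 2)]
def E2 : List (ℕ × ℕ) := [(0x8adb2452ef816acb28d33a5c418820, 2), (0x71a4d7d4a89de8c4a9703da2418820, 2),
  (0xb99b28523343aaa4b16f258a718820, 2), (0xba64d4562f83a87312d362caa18820, 2),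
  (0xbae4d8563343a8cb28cf3a4a410c01, 2), (0xba5b27d2289baac32ad03aca408062, 2)]
def s3 : ℕ × ℕ := (0x59430bd4c80262a99054b34ec7ba43, 3)
def z3 : ℕ × ℕ := (0x2a5b47d6f383a4ab1d6861a2418402, 3)
def P3 : List (ℕ × ℕ) := [(0x95a0fbceb12b50c3296e3a68410023, 3), (0x984ae95e0daa22b1581448de623147, 3),
  (0xbd9b59c9c8816843296f6262700c22, 3)]
def t2 : ℕ × ℕ := (0xbb5267acb09bacc91ea85522418022, 2)
def b2 : ℕ × ℕ := (0x410d246561328e48d75094d353cf7, 2)

theorem c1 : chk E1 63 [1, 21, 42, 0, 0, 0] = true := by decide +kernel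
theorem c2 : chk (s3 :: E1) 191 [1, 21, 42, 0, 128, 0] = true := by decide +kernel
theorem c3 : chk E2 63 [1, 45, 18, 0, 0, 0] = true := by decide +kernel
theorem c4 : chk (z3 :: E2) 191 [1, 45, 18, 128, 0, 0] = true := by decide +kernel
theorem c5 : chk P3 26 [1, 0, 0, 14, 12, 0] = true := by decide +kernel
theorem c6 : chk [t2, z3] 5 [1, 3, 0, 2, 0, 0] = true := by decide +kernel
theorem c7 : chk [z3] 2 [1, 0, 0, 2, 0, 0] = true := by decide +kernel
theorem c8 : chk [s3] 2 [1, 0, 0, 0, 2, 0] = true := by decide +kernel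
theorem c9 : chk [t2] 1 [1, 1, 0, 0, 0, 0] = true := by decide +kernel
theorem c10 : chk [b2] 1 [1, 0, 1, 0, 0, 0] = true := by decide +kernel

theorem Fx_cons (s : ℕ × ℕ) (t : List (ℕ × ℕ)) : finrank ℂ (Fx β (s :: t)) ≤ finrank ℂ (Fx β t) :=
  Submodule.finrank_mono fun _ h u hu => h u (List.mem_cons_of_mem _ hu)

/-- the degree bound -/
theorem deg_ge (β : M24 →* End ℂ U) {σ : M24} {f : ℕ → ℕ} (h : Rp σ f) (h1 : cl f = 1)
    (hn : trace ℂ U (β σ) ≠ finrank ℂ U) : 23 ≤ finrank ℂ U := by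
  obtain ⟨x, hx⟩ := h.conj (by omega)
  rw [← tr_conj x, hx, h1] at hn
  have e1 := chk_spec (β := β) c1
  have e2 := chk_spec (β := β) c2
  have e3 := chk_spec (β := β) c3
  have e4 := chk_spec (β := β) c4
  have e5 := chk_spec (β := β) c5
  have e6 := chk_spec (β := β) c6
  have e7 := chk_spec (β := β) c7
  have e8 := chk_spec (β := β) c8
  have e9 := chk_spec (β := β) c9
  have e10 := chk_spec (β := β) c10
  have l1 := Fx_cons (β := β) s3 E1
  have l2 := Fx_cons (β := β) z3 E2
  have l3 := (Fx β [t2]).finrank_le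
  have l4 := (Fx β [b2]).finrank_le
  have l5 : finrank ℂ (Fx β [t2]) ≠ finrank ℂ U := fun e => hn (by
    rw [e] at e9; push_cast at e9; linear_combination -e9)
  push_cast at e1 e2 e3 e4 e5 e6 e7 e8 e9 e10
  generalize finrank ℂ (Fx β E1) = n1 at *
  generalize finrank ℂ (Fx β (s3 :: E1)) = n2 at *
  generalize finrank ℂ (Fx β E2) = n3 at *
  generalize finrank ℂ (Fx β (z3 :: E2)) = n4 at *
  generalize finrank ℂ (Fx β P3) = n5 at *
  generalize finrank ℂ (Fx β [t2, z3]) = n6 at *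
  generalize finrank ℂ (Fx β [z3]) = n7 at *
  generalize finrank ℂ (Fx β [s3]) = n8 at *
  generalize finrank ℂ (Fx β [t2]) = n9 at *
  generalize finrank ℂ (Fx β [b2]) = n10 at *
  generalize finrank ℂ U = n at *
  have f1 : 64 * n1 + 62 * n = 42 * n9 + 84 * n10 := by
    have : (64 * n1 + 62 * n : ℂ) = 42 * n9 + 84 * n10 := by linear_combination e1 - 21 * e9 - 42 * e10
    exact_mod_cast this
  have f2 : 192 * n2 + 64 * n = 64 * n1 + 192 * n8 := by
    have : (192 * n2 + 64 * n : ℂ) = 64 * n1 + 192 * n8 := by linear_combination e2 - e1 - 64 * e8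
    exact_mod_cast this
  have f3 : 64 * n3 + 62 * n = 90 * n9 + 36 * n10 := by
    have : (64 * n3 + 62 * n : ℂ) = 90 * n9 + 36 * n10 := by linear_combination e3 - 45 * e9 - 18 * e10
    exact_mod_cast this
  have f4 : 192 * n4 + 64 * n = 64 * n3 + 192 * n7 := by
    have : (192 * n4 + 64 * n : ℂ) = 64 * n3 + 192 * n7 := by linear_combination e4 - e3 - 64 * e7
    exact_mod_cast this
  have f5 : 27 * n5 + 12 * n = 21 * n7 + 18 * n8 := by
    have : (27 * n5 + 12 * n : ℂ) = 21 * n7 + 18 * n8 := by linear_combination e5 - 7 * e7 - 6 * e8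
    exact_mod_cast this
  have f6 : 6 * n6 + 3 * n = 3 * n7 + 6 * n9 := by
    have : (6 * n6 + 3 * n : ℂ) = 3 * n7 + 6 * n9 := by linear_combination e6 - e7 - 3 * e9
    exact_mod_cast this
  clear e1 e2 e3 e4 e5 e6 e7 e8 e9 e10 hn h1
  by_contra hlt
  obtain ⟨p, rfl⟩ := Nat.exists_eq_add_of_le l3
  have g0 : p < 23 := by omega
  have g1 : p = 8 ∧ n10 + 4 = n9 := by interval_cases p <;> omega
  obtain ⟨rfl, rfl⟩ := g1
  have g2 : n10 = 9 ∨ n10 = 10 := by omega
  have g3 : n7 ≤ 10 := by omega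
  rcases g2 with rfl | rfl <;> interval_cases n7 <;> omega

end CF.Leech.MD
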